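import Cfsg.Agent.H27.IF.PhiSU

/-!
# S5719 (involution fixity): (PHI) for `SU(V)`, `q` odd: absolute form, products, orthogonal decompositions (helper27)

* `phi_abs` : `X ≤ SU(V)` without fundamental involutions has index at least `q ^ (dim V ^ 2 / 4)`;
* `phi_two` : the same for a product of two special unitary groups;
* `DW B W` : the image of `SU(W) × SU(W^⊥)` in `SU(V)`; `phi_dec`, `DW_comm`, `card_DW`.
-/

set_option autoImplicit false
set_option linter.unusedSectionVars false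

universe u v w

namespace Cfsg.Agent.H27.IF

open Module Cfsg.Agent.H91.U Cfsg.Agent.H450.UF Cfsg.Agent.H450.Bs
open Cfsg.Agent.H353.Phi (fund ext ext_fund ext_mem ext_add ext_fix ext_coe exists_add finite_equiv pair mem_slV)
open Cfsg.Agent.H847.Bs (slV)

section Phi

variable {F : Type u} [Field F] [Fintype F] {q : ℕ} (hF : Fintype.card F = q ^ 2) (h2 : (2 : F) ≠ 0)
  (hFT : ∀ (D : Type v) [Group D] [Finite D], Odd (Nat.card D) → Group.IsSolvable D) {σ : F →+* F}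

include hF h2 hFT

/-- **(PHI) for `SU(V)`** (`q` odd) -/
theorem phi_abs {V : Type v} [AddCommGroup V] [Module F V] [Module.Finite F V] {B : V →ₛₗ[σ] V →ₗ[F] F}
    (hB : HForm B) (X : Subgroup (SIso B)) (hX : ∀ z ∈ X, ¬ fund z.1) : q ^ (finrank F V ^ 2 / 4) ≤ X.index := by
  have : Finite (SIso B) := finite_SIso
  have h1 := phi hF h2 hFT (finrank F V) V B hB rfl PUnit.{1} ∅ 1 (by simp) (by simp)
    (fun Y _ => Nat.one_le_iff_ne_zero.2 Subgroup.index_ne_zero_of_finite)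
    (X.comap (MonoidHom.fst (SIso B) PUnit)) (fun z hz hzX => hX z hzX hz) (by simp)
  rw [mul_one, Subgroup.index_comap_of_surjective _ (fun x => ⟨(x, 1), rfl⟩)] at h1
  exact h1

/-- **(PHI) for `SU(V₁) × SU(V₂)`** (`q` odd) -/
theorem phi_two {V₁ V₂ : Type v} [AddCommGroup V₁] [Module F V₁] [Module.Finite F V₁] [AddCommGroup V₂] [Module F V₂]
    [Module.Finite F V₂] {B₁ : V₁ →ₛₗ[σ] V₁ →ₗ[F] F} {B₂ : V₂ →ₛₗ[σ] V₂ →ₗ[F] F} (hB₁ : HForm B₁) (hB₂ : HForm B₂)
    (X : Subgroup (SIso B₁ × SIso B₂)) (h₁ : ∀ z : SIso B₁, fund z.1 → (z, 1) ∉ X)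
    (h₂ : ∀ z : SIso B₂, fund z.1 → (1, z) ∉ X) :
    q ^ (finrank F V₁ ^ 2 / 4 + finrank F V₂ ^ 2 / 4) ≤ X.index := by
  have : Finite (SIso B₁) := finite_SIso
  have : Finite (SIso B₂) := finite_SIso
  rw [pow_add]
  refine phi hF h2 hFT (finrank F V₁) V₁ B₁ hB₁ rfl (SIso B₂) {z | fund z.1} _ (fun z hz => Subtype.ext hz.1)
    (fun g z hz => fund_conj hz) (fun Y hY => phi_abs hF h2 hFT hB₂ Y fun z hz hf => hY z hf hz) X h₁ h₂

end Phi

section Dec

variable {F : Type u} {V : Type v} [Field F] [AddCommGroup V] [Module F V] [FiniteDimensional F V] {σ : F →+* F}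
  {B : V →ₛₗ[σ] V →ₗ[F] F}

theorem isCompl_pp [Finite F] (hB : HForm B) {W : Submodule F V} (hW : ∀ x ∈ W, (∀ y ∈ W, B x y = 0) → x = 0) :
    IsCompl W (pp B W) := by
  have hd : Disjoint W (pp B W) := by
    rw [Submodule.disjoint_def]
    exact fun x hx hx' => hW x hx fun y hy => hx' y hy
  refine ⟨hd, ?_⟩
  rw [codisjoint_iff]
  have h1 := finrank_pp hB W
  have h2 := Submodule.finrank_sup_add_finrank_inf_eq W (pp B W)
  rw [hd.eq_bot, finrank_bot, add_zero] at h2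
  exact Submodule.eq_top_of_finrank_eq (by omega)

theorem pp_nd [Finite F] (hB : HForm B) {W : Submodule F V} (hW : ∀ x ∈ W, (∀ y ∈ W, B x y = 0) → x = 0) :
    ∀ x ∈ pp B W, (∀ y ∈ pp B W, B x y = 0) → x = 0 := by
  intro x hx h
  apply hB.eq_zero
  intro y
  have hy : y ∈ W ⊔ pp B W := by rw [(isCompl_pp hB hW).sup_eq_top]; trivial
  obtain ⟨a, ha, b, hb, rfl⟩ := Submodule.mem_sup.1 hy
  rw [map_add, hx a ha, h b hb, add_zero]

theorem orth1 (hB : HForm B) (W : Submodule F V) : ∀ a ∈ W, ∀ b ∈ pp B W, B a b = 0 :=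
  fun a ha _b hb => hB.swap_zero (hb a ha)

theorem orth2 (W : Submodule F V) : ∀ b ∈ pp B W, ∀ a ∈ W, B b a = 0 := fun _b hb a ha => hb a ha

variable [Finite F] (hB : HForm B) {W : Submodule F V} (hW : ∀ x ∈ W, (∀ y ∈ W, B x y = 0) → x = 0)

/-- `SU(W) → SU(V)` -/
noncomputable def e1 : SIso (res B W) →* SIso B := extS (isCompl_pp hB hW).symm (orth2 W) (orth1 hB W)

/-- `SU(W^⊥) → SU(V)` -/
noncomputable def e2 : SIso (res B (pp B W)) →* SIso B := extS (isCompl_pp hB hW) (orth1 hB W) (orth2 W)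

theorem e1_W (g : SIso (res B W)) {v : V} (hv : v ∈ W) : (e1 hB hW g).1 v = g.1 ⟨v, hv⟩ :=
  ext_coe (isCompl_pp hB hW).symm g.1 ⟨v, hv⟩

theorem e1_pp (g : SIso (res B W)) {v : V} (hv : v ∈ pp B W) : (e1 hB hW g).1 v = v :=
  ext_fix (isCompl_pp hB hW).symm g.1 v hv

theorem e2_pp (g : SIso (res B (pp B W))) {v : V} (hv : v ∈ pp B W) : (e2 hB hW g).1 v = g.1 ⟨v, hv⟩ :=
  ext_coe (isCompl_pp hB hW) g.1 ⟨v, hv⟩

theorem e2_W (g : SIso (res B (pp B W))) {v : V} (hv : v ∈ W) : (e2 hB hW g).1 v = v :=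
  ext_fix (isCompl_pp hB hW) g.1 v hv

include hB hW in
/-- linear maps are determined by their values on `W` and `W^⊥` -/
theorem ext_dec {g h : SIso B} (h1 : ∀ v ∈ W, g.1 v = h.1 v) (h2 : ∀ v ∈ pp B W, g.1 v = h.1 v) : g = h := by
  apply Subtype.ext
  ext v
  have hv : v ∈ W ⊔ pp B W := by rw [(isCompl_pp hB hW).sup_eq_top]; trivial
  obtain ⟨a, ha, b, hb, rfl⟩ := Submodule.mem_sup.1 hv
  rw [map_add, map_add, h1 a ha, h2 b hb]

theorem e1_e2 (g : SIso (res B W)) (h : SIso (res B (pp B W))) : Commute (e1 hB hW g) (e2 hB hW h) := by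
  refine ext_dec hB hW (fun v hv => ?_) (fun v hv => ?_)
  · change (e1 hB hW g).1 ((e2 hB hW h).1 v) = (e2 hB hW h).1 ((e1 hB hW g).1 v)
    rw [e2_W hB hW h hv, e1_W hB hW g hv, e2_W hB hW h (g.1 ⟨v, hv⟩).2]
  · change (e1 hB hW g).1 ((e2 hB hW h).1 v) = (e2 hB hW h).1 ((e1 hB hW g).1 v)
    rw [e1_pp hB hW g hv, e2_pp hB hW h hv, e1_pp hB hW g (h.1 ⟨v, hv⟩).2]

/-- `SU(W) × SU(W^⊥) → SU(V)` -/
noncomputable def e12 : SIso (res B W) × SIso (res B (pp B W)) →* SIso B :=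
  (e1 hB hW).noncommCoprod (e2 hB hW) (e1_e2 hB hW)

theorem e12_apply (p : SIso (res B W) × SIso (res B (pp B W))) : e12 hB hW p = e1 hB hW p.1 * e2 hB hW p.2 := rfl

theorem e12_W (p : SIso (res B W) × SIso (res B (pp B W))) {v : V} (hv : v ∈ W) :
    (e12 hB hW p).1 v = p.1.1 ⟨v, hv⟩ := by
  rw [e12_apply]
  change (e1 hB hW p.1).1 ((e2 hB hW p.2).1 v) = _
  rw [e2_W hB hW p.2 hv, e1_W hB hW p.1 hv]

theorem e12_pp (p : SIso (res B W) × SIso (res B (pp B W))) {v : V} (hv : v ∈ pp B W) :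
    (e12 hB hW p).1 v = p.2.1 ⟨v, hv⟩ := by
  rw [e12_apply]
  change (e1 hB hW p.1).1 ((e2 hB hW p.2).1 v) = _
  rw [e2_pp hB hW p.2 hv, e1_pp hB hW p.1 (p.2.1 ⟨v, hv⟩).2]

theorem e12_injective : Function.Injective (e12 hB hW) := by
  intro p p' h
  refine Prod.ext (Subtype.ext (LinearEquiv.ext fun v => Subtype.ext ?_))
    (Subtype.ext (LinearEquiv.ext fun v => Subtype.ext ?_))
  · have h1 := e12_W hB hW p v.2
    rw [h, e12_W hB hW p' v.2] at h1
    exact h1.symm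
  · have h1 := e12_pp hB hW p v.2
    rw [h, e12_pp hB hW p' v.2] at h1
    exact h1.symm

/-- the group `SU(W) × SU(W^⊥)` as a subgroup of `SU(V)` -/
noncomputable def DW : Subgroup (SIso B) := (e12 hB hW).range

/-- it commutes with everything which is scalar on `W` and on `W^⊥` -/
theorem DW_comm {t : SIso B} {a b : F} (h1 : ∀ v ∈ W, t.1 v = a • v) (h2 : ∀ v ∈ pp B W, t.1 v = b • v) :
    ∀ x ∈ DW hB hW, x * t = t * x := by
  rintro _ ⟨p, rfl⟩
  refine ext_dec hB hW (fun v hv => ?_) (fun v hv => ?_)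
  · change (e12 hB hW p).1 (t.1 v) = t.1 ((e12 hB hW p).1 v)
    rw [h1 v hv, map_smul, e12_W hB hW p hv, h1 _ (p.1.1 ⟨v, hv⟩).2]
  · change (e12 hB hW p).1 (t.1 v) = t.1 ((e12 hB hW p).1 v)
    rw [h2 v hv, map_smul, e12_pp hB hW p hv, h2 _ (p.2.1 ⟨v, hv⟩).2]

end Dec

section Dec2

variable {F : Type u} {V : Type v} [Field F] [Fintype F] [AddCommGroup V] [Module F V] [FiniteDimensional F V]
  {σ : F →+* F} {B : V →ₛₗ[σ] V →ₗ[F] F} {q : ℕ}

/-- **(PHI) for `SU(W) × SU(W^⊥)`** (`q` odd) -/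
theorem phi_dec (hF : Fintype.card F = q ^ 2) (h2 : (2 : F) ≠ 0)
    (hFT : ∀ (D : Type v) [Group D] [Finite D], Odd (Nat.card D) → Group.IsSolvable D)
    (hB : HForm B) {W : Submodule F V} (hW : ∀ x ∈ W, (∀ y ∈ W, B x y = 0) → x = 0)
    (X : Subgroup (SIso B)) (hX : ∀ z ∈ X, ¬ fund z.1) {k m : ℕ} (hk : finrank F W = k)
    (hm : finrank F V = k + m) : q ^ (k ^ 2 / 4 + m ^ 2 / 4) ≤ X.relIndex (DW hB hW) := by
  have h3 : finrank F (pp B W) = m := by
    have := finrank_pp hB W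
    omega
  have key := phi_two hF h2 hFT (hform_res hB hW) (hform_res hB (pp_nd hB hW)) (X.comap (e12 hB hW)) (by
      intro z hz hzX
      refine hX _ hzX ?_
      rw [e12_apply, map_one, mul_one]
      exact ext_fund h2 _ hz) (by
      intro z hz hzX
      refine hX _ hzX ?_
      rw [e12_apply, map_one, one_mul]
      exact ext_fund h2 _ hz)
  rw [hk, h3, Subgroup.index_comap] at key
  exact key

/-- the order of `SU(V)` depends only on the dimension -/
theorem card_SIso (hF : Fintype.card F = q ^ 2) (hB : HForm B) {n : ℕ} (hn : finrank F V = n) :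
    Nat.card (SIso B) = Nat.card (Cfsg.SU n F q) := by
  subst hn
  obtain ⟨φ, hφ⟩ := exists_model hF hB
  rw [Nat.card_congr (toIso (n := finrank F V) hF).toEquiv]
  have hb : ∀ v w, B v w = Cfsg.Agent.H77.Witt.formB hF (finrank F V) (φ v) (φ w) := by
    intro v w
    rw [hφ, Cfsg.Agent.H77.Witt.formB_apply]
  refine Nat.card_congr
    { toFun := fun g => ⟨(φ.symm.trans g.1).trans φ, ?_, ?_⟩
      invFun := fun g => ⟨(φ.trans g.1).trans φ.symm, ?_, ?_⟩
      left_inv := fun g => Subtype.ext (LinearEquiv.ext fun v => by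
        change φ.symm (φ (g.1 (φ.symm (φ v)))) = g.1 v
        rw [φ.symm_apply_apply, φ.symm_apply_apply])
      right_inv := fun g => Subtype.ext (LinearEquiv.ext fun v => by
        change φ (φ.symm (g.1 (φ (φ.symm v)))) = g.1 v
        rw [φ.apply_symm_apply, φ.apply_symm_apply]) }
  · rw [← g.2.1]
    exact LinearEquiv.det_conj g.1 φ
  · intro x y
    change Cfsg.Agent.H77.Witt.formB hF _ (φ (g.1 (φ.symm x))) (φ (g.1 (φ.symm y))) = _
    rw [← hb, g.2.2, hb, φ.apply_symm_apply, φ.apply_symm_apply]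
  · rw [← g.2.1]
    exact LinearEquiv.det_conj g.1 φ.symm
  · intro x y
    change B (φ.symm (g.1 (φ x))) (φ.symm (g.1 (φ y))) = _
    rw [hb, φ.apply_symm_apply, φ.apply_symm_apply, g.2.2, ← hb]

/-- the order of `SU(W) × SU(W^⊥)` -/
theorem card_DW (hF : Fintype.card F = q ^ 2) (hB : HForm B) {W : Submodule F V}
    (hW : ∀ x ∈ W, (∀ y ∈ W, B x y = 0) → x = 0) {k m : ℕ} (hk : finrank F W = k) (hm : finrank F V = k + m) :
    Nat.card (DW hB hW) = Nat.card (Cfsg.SU k F q) * Nat.card (Cfsg.SU m F q) := by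
  have h3 : finrank F (pp B W) = m := by
    have := finrank_pp hB W
    omega
  rw [← card_SIso hF (hform_res hB hW) hk, ← card_SIso hF (hform_res hB (pp_nd hB hW)) h3, ← Nat.card_prod]
  exact (Nat.card_congr (MonoidHom.ofInjective (e12_injective hB hW)).toEquiv).symm

end Dec2

end Cfsg.Agent.H27.IF
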