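import Cfsg.Agent.H27.IF.Tot

/-!
# The unipotent radical of the stabiliser of an isotropic point in `SU(V)` (helper27, S5719)

* `IsX B e w c g` : `g v = v + B(e, v) w - B(w, v) e + c B(e, v) e`;
* `QQ` : the group of these elements, `w ∈ ⟨e, f⟩^⊥`, for a hyperbolic pair `(e, f)`;
* `le_card_QQ` : `q ^ (2 dim V - 3) ≤ |QQ|`; `odd_QQ`; `card_inf_le` : a subgroup without transvections with centre `e` has
  order at most `q ^ (dim V - 2)`.
-/

set_option autoImplicit false
set_option linter.unusedSectionVars false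

namespace Cfsg.Agent.H27.IF

open Module Cfsg.Agent.H91.U Cfsg.Agent.H450.UF Cfsg.Agent.H450.Bs

variable {F V : Type*} [Field F] [AddCommGroup V] [Module F V] {σ : F →+* F} {B : V →ₛₗ[σ] V →ₗ[F] F}

variable (B) in
/-- the elements of the unipotent radical -/
def IsX (e w : V) (c : F) (g : V ≃ₗ[F] V) : Prop := ∀ v, g v = v + B e v • w - B w v • e + (c * B e v) • e

theorem exists_X [FiniteDimensional F V] (hB : HForm B) {e w : V} (he : B e e = 0) (hw : B e w = 0) {c : F}
    (hc : c + σ c + B w w = 0) : ∃ g : SIso B, IsX B e w c g.1 := by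
  have hwe : B w e = 0 := hB.swap_zero hw
  let T1 : V ≃ₗ[F] V := LinearEquiv.transvection (f := -B w) (v := e) (by rw [LinearMap.neg_apply, hwe, neg_zero])
  let T2 : V ≃ₗ[F] V := LinearEquiv.transvection (f := B e) (v := w + c • e)
    (by rw [map_add, map_smul, hw, he, smul_zero, add_zero])
  have h1 : ∀ v, T1 v = v - B w v • e := fun v => by
    rw [LinearEquiv.transvection.apply, LinearMap.neg_apply, neg_smul, sub_eq_add_neg]
  have h2 : ∀ v, T2 v = v + B e v • (w + c • e) := fun v => by rw [LinearEquiv.transvection.apply]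
  have h3 : IsX B e w c (T2 * T1) := by
    intro v
    rw [LinearEquiv.mul_apply, h2, h1, map_sub, map_smul, he, smul_zero, sub_zero, smul_add, smul_smul,
      mul_comm (B e v) c]
    abel
  have h4 : LinearMap.det (T1 : V →ₗ[F] V) = 1 := by
    have h : (T1 : V →ₗ[F] V) = LinearMap.transvection (-B w) e := by
      ext x
      rw [LinearMap.transvection.apply, LinearEquiv.coe_coe, LinearEquiv.transvection.apply]
    rw [h, LinearMap.transvection.det, LinearMap.neg_apply, hwe, neg_zero, add_zero]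
  have h5 : LinearMap.det (T2 : V →ₗ[F] V) = 1 := by
    have h : (T2 : V →ₗ[F] V) = LinearMap.transvection (B e) (w + c • e) := by
      ext x
      rw [LinearMap.transvection.apply, LinearEquiv.coe_coe, LinearEquiv.transvection.apply]
    rw [h, LinearMap.transvection.det, map_add, map_smul, hw, he, smul_zero, add_zero, add_zero]
  refine ⟨⟨T2 * T1, ?_, ?_⟩, h3⟩
  · rw [map_mul]
    have e1 : LinearEquiv.det T1 = 1 := Units.ext (by rw [LinearEquiv.coe_det, h4, Units.val_one])
    have e2 : LinearEquiv.det T2 = 1 := Units.ext (by rw [LinearEquiv.coe_det, h5, Units.val_one])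
    rw [e1, e2, one_mul]
  · intro x y
    rw [h3, h3]
    simp only [map_add, map_sub, LinearMap.add_apply, LinearMap.sub_apply, smul_left, smul_right, he, hw, hwe,
      mul_zero, add_zero, sub_zero]
    rw [map_mul, ← sw hB e x, ← sw hB w x]
    have := hB.swap x e
    linear_combination (B x e * B e y) * hc

theorem IsX.mul {e w w' : V} {c c' : F} {g g' : V ≃ₗ[F] V} (he : B e e = 0) (hB : HForm B) (hw : B e w = 0)
    (hw' : B e w' = 0) (hg : IsX B e w c g) (hg' : IsX B e w' c' g') :
    IsX B e (w + w') (c + c' - B w w') (g * g') := by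
  intro v
  have hwe : B w e = 0 := hB.swap_zero hw
  have h1 : B e (g' v) = B e v := by
    rw [hg', map_add, map_sub, map_add, map_smul, map_smul, map_smul, he, hw']
    simp
  have h2 : B w (g' v) = B w v + B e v * B w w' := by
    rw [hg', map_add, map_sub, map_add, map_smul, map_smul, map_smul, hwe]
    simp
  rw [LinearEquiv.mul_apply, hg, h1, h2, hg', map_add, LinearMap.add_apply]
  module

theorem IsX.one (e : V) : IsX B e 0 0 (1 : V ≃ₗ[F] V) := by
  intro v
  rw [map_zero, LinearMap.zero_apply, smul_zero, zero_smul, zero_mul, zero_smul]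
  simp

theorem IsX.inj {e f w w' : V} {c c' : F} {g : V ≃ₗ[F] V} (hf : B e f = 1) (hfe : B f e = 1) (hB : HForm B)
    (hw : B f w = 0) (hw' : B f w' = 0) (hg : IsX B e w c g) (hg' : IsX B e w' c' g) : w = w' ∧ c = c' := by
  have h1 := hg f
  rw [hg' f, hf, hB.swap_zero hw, hB.swap_zero hw', one_smul, one_smul, zero_smul, sub_zero, sub_zero, mul_one,
    mul_one, add_assoc, add_assoc, add_right_inj] at h1
  have h2 := congrArg (B f) h1
  rw [map_add, map_add, hw, hw', map_smul, map_smul, hfe, zero_add, zero_add, smul_eq_mul, smul_eq_mul, mul_one,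
    mul_one] at h2
  refine ⟨?_, h2.symm⟩
  rw [h2, add_left_inj] at h1
  exact h1.symm

theorem IsX.inv {e w : V} {c : F} {g : V ≃ₗ[F] V} (he : B e e = 0) (hB : HForm B) (hw : B e w = 0)
    (hg : IsX B e w c g) : IsX B e (-w) (-c - B w w) (g⁻¹) := by
  intro v
  have hwe : B w e = 0 := hB.swap_zero hw
  change g.symm v = _
  rw [LinearEquiv.symm_apply_eq, hg]
  simp only [map_add, map_sub, map_neg, map_smul, LinearMap.neg_apply, he, hw, hwe, smul_eq_mul, mul_zero, add_zero,
    sub_zero, neg_zero]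
  module

/-- the trace zero elements -/
theorem isX_zero_iff {e : V} {c : F} {g : V ≃ₗ[F] V} : IsX B e 0 c g ↔ IsTv B e c g := by
  constructor
  · intro h v
    rw [h, map_zero, LinearMap.zero_apply, smul_zero, zero_smul, add_zero, sub_zero]
  · intro h v
    rw [h, map_zero, LinearMap.zero_apply, smul_zero, zero_smul, add_zero, sub_zero]


/-! ### the number of elements of trace zero -/

theorem card_trz [Fintype F] {q : ℕ} (hF : Fintype.card F = q ^ 2) (hB : HForm B) :
    Nat.card {t : F // t + σ t = 0} = q := by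
  classical
  let τ : F →+ F :=
    { toFun := fun a => a + σ a
      map_zero' := by rw [map_zero, add_zero]
      map_add' := fun a b => by rw [map_add]; ring }
  have h1 : Nat.card τ.ker = Nat.card {t : F // t + σ t = 0} := rfl
  have h2 : Nat.card τ.range = Nat.card {t : F // t + σ t = 0} := by
    obtain ⟨ι, h0, hι⟩ := exists_trz hB
    have hι' : σ ι = -ι := by linear_combination hι
    refine Nat.card_congr
      { toFun := fun a => ⟨ι * a.1, ?_⟩
        invFun := fun t => ⟨ι⁻¹ * t.1, ?_⟩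
        left_inv := fun a => Subtype.ext (by
          change ι⁻¹ * (ι * a.1) = a.1
          rw [inv_mul_cancel_left₀ h0])
        right_inv := fun t => Subtype.ext (by
          change ι * (ι⁻¹ * t.1) = t.1
          rw [mul_inv_cancel_left₀ h0]) }
    · obtain ⟨b, hb⟩ := a.2
      have h3 : σ a.1 = a.1 := by
        rw [← hb]
        change σ (b + σ b) = b + σ b
        rw [map_add, hB.invol, add_comm]
      rw [map_mul, h3, hι']
      ring
    · have h3 : σ (ι⁻¹ * t.1) = ι⁻¹ * t.1 := by
        have h4 : σ t.1 = -t.1 := by linear_combination t.2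
        rw [map_mul, map_inv₀, hι', h4, inv_neg, neg_mul_neg]
      obtain ⟨c, hc⟩ := exists_trace hB h3
      exact ⟨c, hc⟩
  have h3 : Nat.card τ.ker * τ.ker.index = Nat.card F := AddSubgroup.card_mul_index _
  rw [AddSubgroup.index_ker, h2, h1, Nat.card_eq_fintype_card (α := F), hF] at h3
  have h4 : Nat.card {t : F // t + σ t = 0} ^ 2 = q ^ 2 := by rw [pow_two]; exact h3
  exact Nat.pow_left_injective (n := 2) (by norm_num) h4

/-! ### the group -/

/-- hyperbolic pair -/
structure Hyp (B : V →ₛₗ[σ] V →ₗ[F] F) (e f : V) : Prop where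
  ee : B e e = 0
  ff : B f f = 0
  ef : B e f = 1
  fe : B f e = 1

theorem Hyp.symm {e f : V} (h : Hyp B e f) : Hyp B f e := ⟨h.ff, h.ee, h.fe, h.ef⟩

theorem exists_Hyp [Finite F] [FiniteDimensional F V] (hB : HForm B) (h2 : 2 ≤ finrank F V) : ∃ e f, Hyp B e f := by
  obtain ⟨e, -, he0, he⟩ := exists_iso_mem hB (U := ⊤) (by rwa [finrank_top])
  obtain ⟨f, hf, hef⟩ := exists_hyp hB he0 he
  exact ⟨e, f, he, hf, hef, by rw [sw hB e f, hef, map_one]⟩

/-- the unipotent radical -/
def QQ (hB : HForm B) {e f : V} (h : Hyp B e f) : Subgroup (SIso B) where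
  carrier := {g | ∃ w c, B e w = 0 ∧ B f w = 0 ∧ c + σ c + B w w = 0 ∧ IsX B e w c g.1}
  mul_mem' := by
    rintro g g' ⟨w, c, h1, h2, h3, h4⟩ ⟨w', c', h1', h2', h3', h4'⟩
    refine ⟨w + w', c + c' - B w w', by rw [map_add, h1, h1', add_zero], by rw [map_add, h2, h2', add_zero], ?_,
      h4.mul h.ee hB h1 h1' h4'⟩
    rw [map_sub, map_add, map_add, map_add, LinearMap.add_apply, LinearMap.add_apply, ← sw hB w w']
    linear_combination h3 + h3'
  one_mem' := ⟨0, 0, map_zero _, map_zero _, by simp, IsX.one e⟩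
  inv_mem' := by
    rintro g ⟨w, c, h1, h2, h3, h4⟩
    refine ⟨-w, -c - B w w, by rw [map_neg, h1, neg_zero], by rw [map_neg, h2, neg_zero], ?_, h4.inv h.ee hB h1⟩
    rw [map_sub, map_neg, self_fix hB, map_neg, map_neg, LinearMap.neg_apply]
    linear_combination -h3

variable [FiniteDimensional F V]

/-- the orthogonal space of the pair -/
def VV (B : V →ₛₗ[σ] V →ₗ[F] F) (e f : V) : Submodule F V where
  carrier := {w | B e w = 0 ∧ B f w = 0}
  add_mem' := fun {x y} hx hy => ⟨by rw [map_add, hx.1, hy.1, add_zero], by rw [map_add, hx.2, hy.2, add_zero]⟩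
  zero_mem' := ⟨map_zero _, map_zero _⟩
  smul_mem' := fun c x hx => ⟨by rw [smul_right, hx.1, mul_zero], by rw [smul_right, hx.2, mul_zero]⟩

theorem mem_VV {e f w : V} : w ∈ VV B e f ↔ B e w = 0 ∧ B f w = 0 := Iff.rfl

theorem pr_mem {e f : V} (h : Hyp B e f) (v : V) : v - B f v • e - B e v • f ∈ VV B e f := by
  rw [mem_VV]
  constructor
  · rw [map_sub, map_sub, map_smul, map_smul, h.ee, h.ef, smul_eq_mul, smul_eq_mul]
    ring
  · rw [map_sub, map_sub, map_smul, map_smul, h.ff, h.fe, smul_eq_mul, smul_eq_mul]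
    ring

theorem VV_nd (hB : HForm B) {e f : V} (h : Hyp B e f) : ∀ x ∈ VV B e f, (∀ y ∈ VV B e f, B x y = 0) → x = 0 := by
  intro x hx hxy
  apply hB.eq_zero
  intro y
  have h1 := hxy _ (pr_mem h y)
  rw [map_sub, map_sub, map_smul, map_smul, hB.swap_zero hx.1, hB.swap_zero hx.2, smul_zero, smul_zero, sub_zero,
    sub_zero] at h1
  exact h1

theorem isCompl_VV (_hB : HForm B) {e f : V} (h : Hyp B e f) : IsCompl (Submodule.span F {e, f}) (VV B e f) := by
  rw [isCompl_iff, Submodule.disjoint_def, codisjoint_iff, eq_top_iff]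
  constructor
  · intro x hx hx'
    obtain ⟨a, b, rfl⟩ := Submodule.mem_span_pair.1 hx
    obtain ⟨h1, h2⟩ := mem_VV.1 hx'
    rw [map_add, map_smul, map_smul, h.ee, h.ef, smul_zero, zero_add, smul_eq_mul, mul_one] at h1
    rw [map_add, map_smul, map_smul, h.fe, h.ff, smul_zero, add_zero, smul_eq_mul, mul_one] at h2
    rw [h1, h2, zero_smul, zero_smul, add_zero]
  · intro v _
    rw [Submodule.mem_sup]
    refine ⟨B f v • e + B e v • f, Submodule.mem_span_pair.2 ⟨_, _, rfl⟩, _, pr_mem h v, ?_⟩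
    abel

theorem li_pair {e f : V} (h : Hyp B e f) : LinearIndependent F ![e, f] :=
  li_of_not_perp h.ee (by rw [h.ef]; exact one_ne_zero)

theorem finrank_VV (hB : HForm B) {e f : V} (h : Hyp B e f) : finrank F (VV B e f) + 2 = finrank F V := by
  have h1 := Submodule.finrank_add_eq_of_isCompl (isCompl_VV hB h)
  have h2 : finrank F (Submodule.span F {e, f}) = 2 := by
    have h3 := finrank_span_eq_card (li_pair h)
    rw [Fintype.card_fin] at h3
    have h4 : ({e, f} : Set V) = Set.range ![e, f] := by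
      rw [Matrix.range_cons, Matrix.range_cons, Matrix.range_empty, Set.union_empty]
      rfl
    rw [h4]
    exact h3
  omega

theorem finite_SIso [Finite F] : Finite (SIso B) := by
  have : Finite V := Module.finite_of_finite F
  have : Finite (V ≃ₗ[F] V) := Finite.of_injective (fun e : V ≃ₗ[F] V => (e : V → V))
    (fun _ _ h => LinearEquiv.ext fun v => congrFun h v)
  infer_instance

/-- **the order of the unipotent radical** -/
theorem le_card_QQ [Fintype F] {q : ℕ} (hF : Fintype.card F = q ^ 2) (hB : HForm B) {e f : V} (h : Hyp B e f) {d : ℕ}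
    (hd : finrank F V = d + 2) : q ^ (2 * d + 1) ≤ Nat.card (QQ hB h) := by
  classical
  have : Finite (SIso B) := finite_SIso
  have hfV : Finite V := Module.finite_of_finite F
  choose c₀ hc₀ using fun w : V => exists_trace hB (s := -B w w) (by rw [map_neg, self_fix hB])
  have key : ∀ p : VV B e f × {t : F // t + σ t = 0}, ∃ g : SIso B, IsX B e p.1.1 (c₀ p.1 + p.2) g.1 := by
    rintro ⟨w, t⟩
    refine exists_X hB h.ee w.2.1 ?_
    rw [map_add]
    linear_combination hc₀ w + t.2
  choose g hg using key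
  have hinj : Function.Injective (fun p : VV B e f × {t : F // t + σ t = 0} => (⟨g p, p.1, _, p.1.2.1, p.1.2.2, by
      rw [map_add]
      linear_combination hc₀ p.1 + p.2.2, hg p⟩ : QQ hB h)) := by
    intro p p' hpp
    have h1 : g p = g p' := congrArg Subtype.val hpp
    have h2 := hg p
    rw [h1] at h2
    obtain ⟨h3, h4⟩ := h2.inj h.ef h.fe hB p.1.2.2 p'.1.2.2 (hg p')
    have h5 : p.1 = p'.1 := Subtype.ext h3
    rw [h3, add_right_inj] at h4
    exact Prod.ext h5 (Subtype.ext h4)
  have h1 := Nat.card_le_card_of_injective _ hinj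
  rw [Nat.card_prod, card_trz hF hB, Module.natCard_eq_pow_finrank (K := F), Nat.card_eq_fintype_card (α := F), hF,
    ← pow_mul, ← pow_succ] at h1
  have h2 := finrank_VV hB h
  have h3 : finrank F (VV B e f) = d := by omega
  rw [h3] at h1
  exact h1

/-- the unipotent radical has odd order -/
theorem odd_QQ [Finite F] (hB : HForm B) {e f : V} (h : Hyp B e f) (h2 : (2 : F) ≠ 0) :
    Odd (Nat.card (QQ hB h)) := by
  have : Finite (SIso B) := finite_SIso
  by_contra hcon
  rw [Nat.not_odd_iff_even, even_iff_two_dvd] at hcon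
  have : Fact (Nat.Prime 2) := ⟨Nat.prime_two⟩
  obtain ⟨⟨g, w, c, h1, h1', h3, h4⟩, hg⟩ := exists_prime_orderOf_dvd_card' 2 hcon
  have h5 : g * g = 1 := by
    have := pow_orderOf_eq_one (⟨g, w, c, h1, h1', h3, h4⟩ : QQ hB h)
    rw [hg, pow_two] at this
    exact congrArg Subtype.val this
  have h6 := h4.mul h.ee hB h1 h1 h4
  have h7 : g.1 * g.1 = 1 := congrArg Subtype.val h5
  rw [h7] at h6
  obtain ⟨h8, h9⟩ := h6.inj h.ef h.fe hB (by rw [map_add, h1', add_zero]) (map_zero _) (IsX.one e)
  have h10 : w = 0 := by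
    have : (2 : F) • w = 0 := by rw [two_smul, h8]
    exact (smul_eq_zero.1 this).resolve_left h2
  have h11 : c = 0 := by
    rw [h10, map_zero, sub_zero, ← two_mul] at h9
    exact (mul_eq_zero.1 h9).resolve_left h2
  have h12 : g = 1 := by
    apply Subtype.ext
    ext v
    rw [h4, h10, h11]
    simp
  have h13 : (⟨g, w, c, h1, h1', h3, h4⟩ : QQ hB h) = 1 := Subtype.ext h12
  rw [h13, orderOf_one] at hg
  exact absurd hg (by norm_num)

/-- **subgroups of the unipotent radical without transvections** -/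
theorem card_inf_le [Fintype F] {q : ℕ} (hF : Fintype.card F = q ^ 2) (hB : HForm B) {e f : V} (h : Hyp B e f) {d : ℕ}
    (hd : finrank F V = d + 2) (D : Subgroup (SIso B)) (hD : ∀ g ∈ D, ∀ c, IsTv B e c g.1 → g = 1) :
    Nat.card (D ⊓ QQ hB h : Subgroup (SIso B)) ≤ q ^ d := by
  classical
  have : Finite (SIso B) := finite_SIso
  have hfV : Finite V := Module.finite_of_finite F
  let S : AddSubgroup (VV B e f) :=
    { carrier := {w | ∃ g ∈ D, ∃ c, c + σ c + B (w : V) w = 0 ∧ IsX B e w c g.1}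
      add_mem' := by
        rintro w w' ⟨g, hg, c, h3, h4⟩ ⟨g', hg', c', h3', h4'⟩
        refine ⟨g * g', D.mul_mem hg hg', c + c' - B (w : V) w', ?_, h4.mul h.ee hB w.2.1 w'.2.1 h4'⟩
        rw [Submodule.coe_add, map_sub, map_add, map_add, map_add, LinearMap.add_apply, LinearMap.add_apply,
          ← sw hB (w : V) w']
        linear_combination h3 + h3'
      zero_mem' := ⟨1, D.one_mem, 0, by simp, IsX.one e⟩
      neg_mem' := by
        rintro w ⟨g, hg, c, h3, h4⟩
        refine ⟨g⁻¹, D.inv_mem hg, -c - B (w : V) w, ?_, h4.inv h.ee hB w.2.1⟩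
        rw [Submodule.coe_neg, map_sub, map_neg, self_fix hB, map_neg, map_neg, LinearMap.neg_apply]
        linear_combination -h3 }
  have hS : ∀ w ∈ S, ∀ w' ∈ S, res B (VV B e f) w w' = res B (VV B e f) w' w := by
    rintro w ⟨g, hg, c, h3, h4⟩ w' ⟨g', hg', c', h3', h4'⟩
    rw [res_apply, res_apply]
    have h5 := h4.mul h.ee hB w.2.1 w'.2.1 h4'
    have h6 := h4'.mul h.ee hB w'.2.1 w.2.1 h4
    have h7 := h6.inv h.ee hB (by rw [map_add, w.2.1, w'.2.1, add_zero])
    have h8 := h5.mul h.ee hB (by rw [map_add, w.2.1, w'.2.1, add_zero])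
      (by rw [map_neg, map_add, w.2.1, w'.2.1, add_zero, neg_zero]) h7
    have h9 : (w : V) + w' + -(w' + w) = 0 := by abel
    rw [h9, isX_zero_iff] at h8
    have h10 := hD _ (D.mul_mem (D.mul_mem hg hg') (D.inv_mem (D.mul_mem hg' hg))) _ h8
    have h11 : g.1 * g'.1 = g'.1 * g.1 := by
      have := congrArg Subtype.val (mul_inv_eq_one.1 h10)
      exact this
    rw [← h11] at h6
    have h12 := (h5.inj h.ef h.fe hB (by rw [map_add, w.2.2, w'.2.2, add_zero])
      (by rw [map_add, w.2.2, w'.2.2, add_zero]) h6).2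
    linear_combination -h12
  have h1 := card_le hF (hform_res hB (VV_nd hB h)) S hS
  have h2 := finrank_VV hB h
  have h3 : finrank F (VV B e f) = d := by omega
  rw [h3] at h1
  refine le_trans ?_ h1
  have key : ∀ g : (D ⊓ QQ hB h : Subgroup (SIso B)), ∃ w : S, ∃ c, IsX B e (w : VV B e f) c g.1.1 := by
    rintro ⟨g, hg, w, c, h4, h5, h6, h7⟩
    exact ⟨⟨⟨w, h4, h5⟩, g, hg, c, h6, h7⟩, c, h7⟩
  choose φ c hφ using key
  refine Nat.card_le_card_of_injective φ fun g g' hgg => ?_
  have h4 := hφ g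
  rw [hgg] at h4
  have hw := (φ g').1.2
  have h5 := h4.mul h.ee hB hw.1 (by rw [map_neg, hw.1, neg_zero]) ((hφ g').inv h.ee hB hw.1)
  rw [add_neg_cancel, isX_zero_iff] at h5
  have h6 := hD (g.1 * g'.1⁻¹) (D.mul_mem g.2.1 (D.inv_mem g'.2.1)) _ h5
  exact Subtype.ext (mul_inv_eq_one.1 h6)

/-- conjugation -/
theorem IsX.conj {e w : V} {c : F} {g h : V ≃ₗ[F] V} (hh : ∀ x y, B (h x) (h y) = B x y) (he : h e = e)
    (hg : IsX B e w c g) : IsX B e (h w) c (h * g * h⁻¹) := by
  intro v
  have h1 : (h * g * h⁻¹) v = h (g (h⁻¹ v)) := rfl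
  have h2 : h (h⁻¹ v) = v := h.apply_symm_apply v
  rw [h1, hg, map_add, map_sub, map_add, map_smul, map_smul, map_smul, h2, he]
  have h3 : B e (h⁻¹ v) = B e v := by
    rw [← hh, he, h2]
  have h4 : B w (h⁻¹ v) = B (h w) v := by
    rw [← hh, h2]
  rw [h3, h4]

end Cfsg.Agent.H27.IF
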