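import Cfsg.Agent.H353.IF.PhiSL
import Cfsg.Agent.H27.IF.QGrp

/-!
# S5719 (involution fixity): (PHI) for `SU(V)`, `q` odd (helper27)

* `extS` : `SU(U) → SU(V)` for an orthogonal decomposition `V = D ⊥ U`;
* `phi` : the relative form; `phi_abs`, `phi_two`.
-/

set_option autoImplicit false
set_option linter.unusedSectionVars false

universe u v w

namespace Cfsg.Agent.H27.IF

open Module Cfsg.Agent.H91.U Cfsg.Agent.H450.UF Cfsg.Agent.H450.Bs
open Cfsg.Agent.H353.Phi (fund ext ext_fund ext_mem ext_add ext_fix ext_coe exists_add finite_equiv pair mem_slV)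
open Cfsg.Agent.H847.Bs (slV)

section Basic

variable {F : Type u} {V : Type v} [Field F] [AddCommGroup V] [Module F V] [FiniteDimensional F V] {σ : F →+* F}
  {B : V →ₛₗ[σ] V →ₗ[F] F}

theorem SIso_le_slV (g : SIso B) : g.1 ∈ slV F V := by
  rw [mem_slV, ← LinearEquiv.coe_det, g.2.1, Units.val_one]

/-- `SU(U) → SU(V)` for an orthogonal decomposition -/
noncomputable def extS {D U : Submodule F V} (h : IsCompl D U) (hDU : ∀ a ∈ D, ∀ b ∈ U, B a b = 0)
    (hUD : ∀ b ∈ U, ∀ a ∈ D, B b a = 0) : SIso (res B U) →* SIso B where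
  toFun y := ⟨ext h y.1, by
      refine ⟨Units.ext ?_, fun x x' => ?_⟩
      · rw [LinearEquiv.coe_det, Units.val_one]
        exact mem_slV.1 (ext_mem h (SIso_le_slV y))
      · obtain ⟨a, b, rfl⟩ := exists_add h x
        obtain ⟨a', b', rfl⟩ := exists_add h x'
        rw [ext_add, ext_add]
        simp only [map_add, LinearMap.add_apply]
        rw [hDU a a.2 _ (y.1 b').2, hUD _ (y.1 b).2 a' a'.2, hDU a a.2 b' b'.2, hUD b b.2 a' a'.2]
        have := y.2.2 b b'
        rw [res_apply, res_apply] at this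
        rw [this]⟩
  map_one' := Subtype.ext (map_one (ext h))
  map_mul' a b := Subtype.ext (map_mul (ext h) _ _)

theorem extS_coe {D U : Submodule F V} (h : IsCompl D U) (hDU : ∀ a ∈ D, ∀ b ∈ U, B a b = 0)
    (hUD : ∀ b ∈ U, ∀ a ∈ D, B b a = 0) (y : SIso (res B U)) : (extS h hDU hUD y).1 = ext h y.1 := rfl

theorem fund_conj {g z : V ≃ₗ[F] V} (hz : fund z) : fund (g * z * g⁻¹) := by
  obtain ⟨h1, h2⟩ := hz
  refine ⟨by rw [show g * z * g⁻¹ * (g * z * g⁻¹) = g * (z * z) * g⁻¹ by group, h1, mul_one, mul_inv_cancel], ?_⟩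
  have h3 : LinearMap.range (((g * z * g⁻¹ : V ≃ₗ[F] V) : V →ₗ[F] V) - 1) =
      (LinearMap.range ((z : V →ₗ[F] V) - 1)).map (g : V →ₗ[F] V) := by
    ext v
    constructor
    · rintro ⟨x, rfl⟩
      refine ⟨z (g⁻¹ x) - g⁻¹ x, ⟨g⁻¹ x, rfl⟩, ?_⟩
      rw [LinearEquiv.coe_coe, map_sub]
      have : g (g⁻¹ x) = x := g.apply_symm_apply x
      rw [this]
      rfl
    · rintro ⟨_, ⟨x, rfl⟩, rfl⟩
      refine ⟨g x, ?_⟩
      have : g⁻¹ (g x) = x := g.symm_apply_apply x
      change g (z (g⁻¹ (g x))) - g x = g (z x - x)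
      rw [this, map_sub]
  rw [h3]
  exact (LinearEquiv.finrank_map_eq g _).trans h2

variable [Finite F]

/-- **(LR)** two transvections of a group without fundamental involutions have orthogonal centres -/
theorem orth_of_tv (h2 : (2 : F) ≠ 0)
    (hFT : ∀ (D : Type v) [Group D] [Finite D], Odd (Nat.card D) → Group.IsSolvable D)
    (hB : HForm B) {X : Subgroup (SIso B)} (hX : ∀ z ∈ X, ¬ fund z.1) {e e' : V} {c c' : F} {t t' : SIso B}
    (ht : t ∈ X) (ht' : t' ∈ X) (h : IsTv B e c t.1) (h' : IsTv B e' c' t'.1) (h1 : t ≠ 1) (h1' : t' ≠ 1)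
    (he : B e e = 0) (he' : B e' e' = 0) : B e e' = 0 := by
  have : Finite V := Module.finite_of_finite F
  have hc : c ≠ 0 := by
    rintro rfl
    apply h1
    apply Subtype.ext
    ext v
    rw [h, zero_mul, zero_smul, add_zero]
    rfl
  have hc' : c' ≠ 0 := by
    rintro rfl
    apply h1'
    apply Subtype.ext
    ext v
    rw [h', zero_mul, zero_smul, add_zero]
    rfl
  have key := pair (F := F) (V := V) h2 hFT (Y := X.map (SIso B).subtype) (by
      rintro _ ⟨g, -, rfl⟩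
      exact SIso_le_slV g) (by
      rintro _ ⟨g, hg, rfl⟩
      exact hX g hg) (t := t.1) (t' := t'.1) ⟨t, ht, rfl⟩ ⟨t', ht', rfl⟩ (φ := c • B e) (ψ := c' • B e') (v₀ := e)
    (v₁ := e') (fun v => by rw [h, LinearMap.smul_apply, smul_eq_mul])
    (fun v => by rw [h', LinearMap.smul_apply, smul_eq_mul])
    (by rw [LinearMap.smul_apply, he, smul_zero]) (by rw [LinearMap.smul_apply, he', smul_zero])
  rcases key with key | key
  · rw [LinearMap.smul_apply, smul_eq_mul, mul_eq_zero] at key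
    exact key.resolve_left hc
  · rw [LinearMap.smul_apply, smul_eq_mul, mul_eq_zero] at key
    exact hB.swap_zero (key.resolve_left hc')

/-- **choice of the centre** -/
theorem exists_good (h2 : (2 : F) ≠ 0)
    (hFT : ∀ (D : Type v) [Group D] [Finite D], Odd (Nat.card D) → Group.IsSolvable D)
    (hB : HForm B) (hd : 2 ≤ finrank F V) {X : Subgroup (SIso B)} (hX : ∀ z ∈ X, ¬ fund z.1) :
    ∃ e f, Hyp B e f ∧ ∀ g ∈ X, ∀ c, IsTv B e c g.1 → g = 1 := by
  obtain ⟨e, f, h⟩ := exists_Hyp hB hd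
  by_cases h1 : ∀ g ∈ X, ∀ c, IsTv B e c g.1 → g = 1
  · exact ⟨e, f, h, h1⟩
  refine ⟨f, e, h.symm, fun g' hg' c' hc' => ?_⟩
  push Not at h1
  obtain ⟨g, hg, c, hc, hg1⟩ := h1
  by_contra hg1'
  have := orth_of_tv h2 hFT hB hX hg hg' hc hc' hg1 hg1' h.ee h.ff
  rw [h.ef] at this
  exact one_ne_zero this

end Basic

/-- **(PHI) for `SU(V)`, relative form** (`q` odd) -/
theorem phi {F : Type u} [Field F] [Fintype F] {q : ℕ} (hF : Fintype.card F = q ^ 2) (h2 : (2 : F) ≠ 0)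
    (hFT : ∀ (D : Type v) [Group D] [Finite D], Odd (Nat.card D) → Group.IsSolvable D) {σ : F →+* F} :
    ∀ (d : ℕ) (V : Type v) [AddCommGroup V] [Module F V] [Module.Finite F V] (B : V →ₛₗ[σ] V →ₗ[F] F),
      HForm B → finrank F V = d →
      ∀ (Γ : Type w) [Group Γ] [Finite Γ] (Z : Set Γ) (c : ℕ), (∀ z ∈ Z, z * z = 1) →
        (∀ g, ∀ z ∈ Z, g * z * g⁻¹ ∈ Z) → (∀ Y : Subgroup Γ, (∀ z ∈ Z, z ∉ Y) → c ≤ Y.index) →
        ∀ X : Subgroup (SIso B × Γ), (∀ z : SIso B, fund z.1 → (z, 1) ∉ X) →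
          (∀ z ∈ Z, ((1 : SIso B), z) ∉ X) → q ^ (d ^ 2 / 4) * c ≤ X.index := by
  have hq : 0 < q := by
    rcases Nat.eq_zero_or_pos q with rfl | h
    · rw [zero_pow two_ne_zero] at hF
      exact absurd hF Fintype.card_ne_zero
    · exact h
  have base : ∀ (V : Type v) [AddCommGroup V] [Module F V] [Module.Finite F V] (B : V →ₛₗ[σ] V →ₗ[F] F)
      (Γ : Type w) [Group Γ] [Finite Γ] (Z : Set Γ) (c : ℕ),
      (∀ Y : Subgroup Γ, (∀ z ∈ Z, z ∉ Y) → c ≤ Y.index) → ∀ X : Subgroup (SIso B × Γ),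
      (∀ z ∈ Z, ((1 : SIso B), z) ∉ X) → c ≤ X.index := by
    intro V _ _ _ B Γ _ _ Z c hc X hX2
    have : Finite V := Module.finite_of_finite F
    have := finite_equiv F V
    have h1 : c ≤ (X.comap (MonoidHom.inr (SIso B) Γ)).index := hc _ fun z hz h => hX2 z hz h
    have h3 : (X.comap (MonoidHom.inr (SIso B) Γ)).index ≤ X.index := by
      rw [Subgroup.index_comap]
      rw [← Subgroup.relIndex_top_right X]
      exact Subgroup.relIndex_le_of_le_right le_top Subgroup.index_ne_zero_of_finite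
    exact h1.trans h3
  intro d
  induction d using Nat.twoStepInduction with
  | zero =>
    intro V _ _ _ B hB hd Γ _ _ Z c hZ hZc hc X hX1 hX2
    simpa using base V B Γ Z c hc X hX2
  | one =>
    intro V _ _ _ B hB hd Γ _ _ Z c hZ hZc hc X hX1 hX2
    simpa using base V B Γ Z c hc X hX2
  | more n ih _ =>
    intro V _ _ _ B hB hd Γ _ _ Z c hZ hZc hc X hX1 hX2
    have : Finite V := Module.finite_of_finite F
    have := finite_equiv F V
    let Y : Subgroup (SIso B) := X.comap (MonoidHom.inl (SIso B) Γ)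
    have hYno : ∀ z ∈ Y, ¬ fund z.1 := fun z hz hf => hX1 z hf hz
    obtain ⟨e, f, h, hgood⟩ := exists_good h2 hFT hB (by omega) hYno
    have hc1 := isCompl_VV hB h
    have hort : ∀ a ∈ Submodule.span F {e, f}, ∀ b ∈ VV B e f, B a b = 0 := by
      intro a ha b hb
      obtain ⟨x, y, rfl⟩ := Submodule.mem_span_pair.1 ha
      rw [map_add, LinearMap.add_apply, smul_left, smul_left, hb.1, hb.2, mul_zero, mul_zero, add_zero]
    have hort' : ∀ b ∈ VV B e f, ∀ a ∈ Submodule.span F {e, f}, B b a = 0 :=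
      fun b hb a ha => hB.swap_zero (hort a ha b hb)
    let lam : SIso (res B (VV B e f)) × Γ →* SIso B × Γ :=
      MonoidHom.prodMap (extS hc1 hort hort') (MonoidHom.id Γ)
    have : Finite (SIso (res B (VV B e f))) := finite_SIso
    let Q : Subgroup (SIso B × Γ) := (QQ hB h).prod ⊥
    have hQ1 : ∀ g : SIso B, ∀ γ : Γ, (g, γ) ∈ Q ↔ g ∈ QQ hB h ∧ γ = 1 := by
      intro g γ
      rw [Subgroup.mem_prod, Subgroup.mem_bot]
    have hQcard : Nat.card Q = Nat.card (QQ hB h) := by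
      refine Nat.card_congr
        { toFun := fun p => ⟨p.1.1, p.2.1⟩
          invFun := fun g => ⟨(g.1, 1), g.2, Subgroup.mem_bot.2 rfl⟩
          left_inv := fun p => Subtype.ext (Prod.ext rfl (Subgroup.mem_bot.1 p.2.2).symm)
          right_inv := fun g => rfl }
    let Zs : Set (SIso B × Γ) := {p | (fund p.1.1 ∧ p.2 = 1) ∨ (p.1 = 1 ∧ p.2 ∈ Z)}
    have key := H847.IF.abs_index lam Q X ?_ ?_ Zs ?_ ?_ ?_ (q ^ (n ^ 2 / 4) * c) ?_
    · have h4 : q ^ (2 * n + 1) ≤ Nat.card Q := by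
        rw [hQcard]
        exact le_card_QQ hF hB h hd
      have h5 : Nat.card (X ⊓ Q : Subgroup (SIso B × Γ)) ≤ q ^ n := by
        refine le_trans ?_ (card_inf_le hF hB h hd Y hgood)
        refine Nat.card_le_card_of_injective (fun p => (⟨p.1.1, ?_, ((hQ1 _ _).1 p.2.2).1⟩ :
          (Y ⊓ QQ hB h : Subgroup (SIso B)))) ?_
        · have h6 := ((hQ1 p.1.1 p.1.2).1 p.2.2).2
          have h7 := p.2.1
          change (p.1.1, (1 : Γ)) ∈ X
          rw [← h6]
          exact h7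
        · intro p p' hpp
          have h6 := ((hQ1 p.1.1 p.1.2).1 p.2.2).2
          have h7 := ((hQ1 p'.1.1 p'.1.2).1 p'.2.2).2
          exact Subtype.ext (Prod.ext (congrArg Subtype.val hpp) (h6.trans h7.symm))
      have h6 : (n + 2) ^ 2 / 4 = n ^ 2 / 4 + n + 1 := by
        have : (n + 2) ^ 2 = n ^ 2 + (n + 1) * 4 := by ring
        rw [this, Nat.add_mul_div_right _ _ (by norm_num)]
        ring
      rw [h6]
      have h7 : q ^ n * (q ^ (n ^ 2 / 4 + n + 1) * c) ≤ q ^ n * X.index := by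
        calc q ^ n * (q ^ (n ^ 2 / 4 + n + 1) * c) = q ^ (2 * n + 1) * (q ^ (n ^ 2 / 4) * c) := by ring
          _ ≤ Nat.card Q * (q ^ (n ^ 2 / 4) * c) := Nat.mul_le_mul_right _ h4
          _ ≤ _ := key
          _ ≤ _ := Nat.mul_le_mul_right _ h5
      exact Nat.le_of_mul_le_mul_left h7 (pow_pos hq n)
    · rw [hQcard]
      exact odd_QQ hB h h2
    · rintro ⟨l, γ⟩ ⟨g, γ'⟩ hg
      obtain ⟨⟨w, c', h4, h5, h6, h7⟩, rfl⟩ := (hQ1 g γ').1 hg
      refine (hQ1 _ _).2 ⟨?_, ?_⟩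
      · have h8 : ∀ x, x ∈ VV B e f → (extS hc1 hort hort' l).1 x ∈ VV B e f := by
          intro x hx
          rw [extS_coe]
          have := ext_coe hc1 l.1 ⟨x, hx⟩
          rw [this]
          exact (l.1 ⟨x, hx⟩).2
        have h9 : (extS hc1 hort hort' l).1 e = e := by
          rw [extS_coe]
          exact ext_fix hc1 l.1 e (Submodule.subset_span (by simp))
        have h10 := h8 w ⟨h4, h5⟩
        exact ⟨_, c', h10.1, h10.2, by rw [(extS hc1 hort hort' l).2.2, h6],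
          IsX.conj (extS hc1 hort hort' l).2.2 h9 h7⟩
      · change γ * 1 * γ⁻¹ = 1
        rw [mul_one, mul_inv_cancel]
    · rintro ⟨g, γ⟩ (⟨h4, h5⟩ | ⟨h4, h5⟩)
      · change γ = 1 at h5
        exact Prod.ext (Subtype.ext h4.1) (by change γ * γ = 1; rw [h5, one_mul])
      · change g = 1 at h4
        exact Prod.ext (by change g * g = 1; rw [h4, one_mul]) (hZ γ h5)
    · rintro ⟨g, γ⟩ ⟨z, γ'⟩ (⟨h4, h5⟩ | ⟨h4, h5⟩)
      · change γ' = 1 at h5
        exact Or.inl ⟨fund_conj h4, by change γ * γ' * γ⁻¹ = 1; rw [h5, mul_one, mul_inv_cancel]⟩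
      · change z = 1 at h4
        exact Or.inr ⟨by change g * z * g⁻¹ = 1; rw [h4, mul_one, mul_inv_cancel], hZc γ _ h5⟩
    · rintro ⟨g, γ⟩ (⟨h4, h5⟩ | ⟨h4, h5⟩) hX
      · change γ = 1 at h5
        rw [h5] at hX
        exact hX1 g h4 hX
      · change g = 1 at h4
        rw [h4] at hX
        exact hX2 γ h5 hX
    · intro Y' hY'
      refine ih (VV B e f) (res B (VV B e f)) (hform_res hB (VV_nd hB h)) (by
        have := finrank_VV hB h
        omega) Γ Z c hZ hZc hc Y' ?_ ?_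
      · intro z hz hzY
        exact hY' _ hzY (Or.inl ⟨ext_fund h2 hc1 hz, rfl⟩)
      · intro z hz hzY
        exact hY' _ hzY (Or.inr ⟨map_one (extS hc1 hort hort'), hz⟩)

end Cfsg.Agent.H27.IF
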