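import Cfsg.Agent.H450.Bs.GenU

/-!
# Additive subgroups of a hermitian space on which the form is symmetric (helper27, S5719)

`card_le` : `D ≤ V` additive, `B x y = B y x` on `D`: `|D| ≤ q ^ dim V`, where `|F| = q ^ 2`.
-/

set_option autoImplicit false
set_option linter.unusedSectionVars false

namespace Cfsg.Agent.H27.IF

open Module Cfsg.Agent.H91.U Cfsg.Agent.H450.UF

variable {F V : Type*} [Field F] [AddCommGroup V] [Module F V] {σ : F →+* F} {B : V →ₛₗ[σ] V →ₗ[F] F}

/-- an additive functional of `F` which vanishes exactly ... on the fixed field and is not zero -/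
theorem exists_functional [Fintype F] (p : ℕ) [Fact p.Prime] [CharP F p] (hB : HForm B) :
    ∃ ψ : F →+ ZMod p, (∀ a, σ a = a → ψ a = 0) ∧ ∃ a, ψ a ≠ 0 := by
  let := ZMod.algebra F p
  let K : AddSubgroup F :=
    { carrier := {a | σ a = a}
      add_mem' := fun {a b} ha hb => by
        change σ (a + b) = a + b
        rw [map_add, ha, hb]
      zero_mem' := map_zero σ
      neg_mem' := fun {a} ha => by
        change σ (-a) = -a
        rw [map_neg, ha] }
  let W : Submodule (ZMod p) F := AddSubgroup.toZModSubmodule p K
  have hW : W < ⊤ := by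
    rw [lt_top_iff_ne_top]
    intro e
    refine hB.ne_id (RingHom.ext fun a => ?_)
    have : a ∈ W := by rw [e]; trivial
    exact this
  obtain ⟨f, hf, hfW⟩ := Submodule.exists_le_ker_of_lt_top W hW
  refine ⟨f.toAddMonoidHom, fun a ha => hfW (show a ∈ W from ha), ?_⟩
  by_contra hcon
  push Not at hcon
  exact hf (LinearMap.ext hcon)

/-- **the size of an additive subgroup on which the form is symmetric** -/
theorem card_le [Fintype F] [FiniteDimensional F V] {q : ℕ} (hF : Fintype.card F = q ^ 2) (hB : HForm B)
    (D : AddSubgroup V) (hD : ∀ x ∈ D, ∀ y ∈ D, B x y = B y x) : Nat.card D ≤ q ^ finrank F V := by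
  classical
  have hfV : Finite V := Module.finite_of_finite F
  obtain ⟨p, hp⟩ := CharP.exists F
  have hpp : p.Prime := CharP.char_is_prime F p
  have := Fact.mk hpp
  let := ZMod.algebra F p
  let : Module (ZMod p) V := Module.compHom V (algebraMap (ZMod p) F)
  obtain ⟨ψ, hψ, a, ha⟩ := exists_functional p hB
  let β : LinearMap.BilinForm (ZMod p) V := LinearMap.mk₂ (ZMod p) (fun x y => ψ (B x y))
    (fun x x' y => by rw [map_add, LinearMap.add_apply, map_add])
    (fun c x y => by
      let f : V →+ ZMod p :=
        { toFun := fun x => ψ (B x y)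
          map_zero' := by rw [map_zero, LinearMap.zero_apply, map_zero]
          map_add' := fun x x' => by rw [map_add, LinearMap.add_apply, map_add] }
      exact (AddMonoidHom.toZModLinearMap p f).map_smul c x)
    (fun x y y' => by rw [map_add, map_add])
    (fun c x y => by
      let f : V →+ ZMod p :=
        { toFun := fun y => ψ (B x y)
          map_zero' := by rw [map_zero, map_zero]
          map_add' := fun x x' => by rw [map_add, map_add] }
      exact (AddMonoidHom.toZModLinearMap p f).map_smul c y)
  have hβ : ∀ x y, β x y = ψ (B x y) := fun x y => rfl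
  have hker : LinearMap.ker β = ⊥ := by
    rw [eq_bot_iff]
    intro x hx
    rw [Submodule.mem_bot]
    apply hB.eq_zero
    intro y
    by_contra hne
    apply ha
    have h1 : β x ((a / B x y) • y) = 0 := by
      have h2 : β x = 0 := LinearMap.mem_ker.1 hx
      rw [h2, LinearMap.zero_apply]
    rwa [hβ, smul_right, div_mul_cancel₀ _ hne] at h1
  let W : Submodule (ZMod p) V := AddSubgroup.toZModSubmodule p D
  have hW : W ≤ β.orthogonal W := by
    intro x hx y hy
    change β y x = 0
    rw [hβ]
    apply hψ
    rw [← sw hB, hD x hx y hy]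
  have h1 := LinearMap.BilinForm.finrank_add_finrank_orthogonal' (B := β) W
  rw [hker, inf_bot_eq, finrank_bot, add_zero] at h1
  have h2 := Submodule.finrank_mono hW
  have h3 : Nat.card W = p ^ finrank (ZMod p) W := by
    rw [Module.natCard_eq_pow_finrank (K := ZMod p), Nat.card_zmod]
  have h4 : Nat.card V = p ^ finrank (ZMod p) V := by
    rw [Module.natCard_eq_pow_finrank (K := ZMod p), Nat.card_zmod]
  have h5 : Nat.card V = (q ^ finrank F V) ^ 2 := by
    rw [Module.natCard_eq_pow_finrank (K := F), Nat.card_eq_fintype_card, hF, ← pow_mul, ← pow_mul, mul_comm]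
  have h6 : Nat.card D = Nat.card W := rfl
  rw [h6]
  have h7 : Nat.card W ^ 2 ≤ (q ^ finrank F V) ^ 2 := by
    rw [← h5, h4, h3, ← pow_mul]
    exact Nat.pow_le_pow_right hpp.pos (by omega)
  exact (Nat.pow_le_pow_iff_left two_ne_zero).1 h7

end Cfsg.Agent.H27.IF
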